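import Cfsg.Agent.SE.CPbaer
import Cfsg.Agent.SE.CP3
import Cfsg.Agent.SE.CMain

/-!
Case (C).
-/

set_option autoImplicit false

namespace Cfsg.Agent.SE
open MulAction

universe u

/-- Case (C): doubly transitive, the involutions of a point stabiliser commute. -/
theorem caseC {G Ω : Type u} [Group G] [Finite G] [MulAction G Ω] (c : Ctx G Ω)
    (h2 : IsMultiplyPretransitive G Ω 2) {a : Ω} (ea : ElAb G a) (zp : Zp G Ω) : Concl G Ω :=
  caseC_of (noPP noP3) c h2 ea zp

end Cfsg.Agent.SE
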