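import Cfsg.Agent.SE.CPred

/-!
The theorem of Baer and Suzuki (proof of Alperin and Lyons), for involutions.
-/

set_option autoImplicit false

namespace Cfsg.Agent.SE.CPr
open MulAction
open Subgroup (centralizer normalizer zpowers closure)

universe u

variable {G : Type u} [Group G] [Finite G]

theorem exists_norm {p : ℕ} [Fact p.Prime] {X : Set G} (hX : ∀ g, ∀ x ∈ X, g * x * g⁻¹ ∈ X)
    {P D : Subgroup G} (hP : IsPGroup p P) (hD : D ≤ P) (h : ¬ X ∩ P ⊆ D) :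
    ∃ x ∈ X ∩ P, x ∉ D ∧ ∀ y ∈ X ∩ D, x * y * x⁻¹ ∈ X ∩ D := by
  obtain ⟨E, ⟨h1, h2, h3⟩, hm⟩ := Set.Finite.exists_maximalFor (fun E : Subgroup G => Nat.card E)
    {E | D ≤ E ∧ E ≤ P ∧ X ∩ E ⊆ D} (Set.toFinite _) ⟨D, le_rfl, hD, Set.inter_subset_right⟩
  haveI := hP.isNilpotent
  have hlt : E.subgroupOf P < ⊤ := lt_top_iff_ne_top.2 fun e =>
    h fun x hx => h3 ⟨hx.1, (Subgroup.subgroupOf_eq_top.1 e) hx.2⟩
  obtain ⟨n, hn, hn'⟩ := SetLike.exists_of_lt (Group.normalizerCondition_of_isNilpotent _ hlt)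
  have hnE : (n : G) ∈ normalizer (E : Set G) :=
    Subgroup.mem_normalizer_fintype fun e he =>
      (Subgroup.mem_normalizer_iff.1 hn ⟨e, h2 he⟩).1 he
  by_contra hc
  push Not at hc
  have hlt' : E < P ⊓ normalizer (E : Set G) :=
    lt_of_le_of_ne (le_inf h2 Subgroup.le_normalizer) fun e => hn' (show (n : G) ∈ E from
      e ▸ (⟨n.2, hnE⟩ : (n : G) ∈ P ⊓ normalizer (E : Set G)))
  refine (red_card_lt hlt').not_ge (hm ⟨h1.trans hlt'.le, inf_le_left, fun x hx => ?_⟩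
    (red_card_lt hlt').le)
  by_contra hxD
  obtain ⟨y, hy, hy'⟩ := hc x ⟨hx.1, hx.2.1⟩ hxD
  exact hy' ⟨hX _ _ hy.1, h3 ⟨hX _ _ hy.1, (Subgroup.mem_normalizer_iff.1 hx.2.2 y).1 (h1 hy.2)⟩⟩

theorem baer_set {p : ℕ} [Fact p.Prime] {X : Set G} (hX : ∀ g, ∀ x ∈ X, g * x * g⁻¹ ∈ X)
    (h : ∀ x ∈ X, ∀ y ∈ X, IsPGroup p (closure {x, y})) : IsPGroup p (closure X) := by
  have key : ∀ P Q : Sylow p G, X ∩ P = X ∩ Q := by
    by_contra hc
    push Not at hc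
    obtain ⟨⟨P, Q⟩, hne, hm⟩ := Set.Finite.exists_maximalFor
      (fun a : Sylow p G × Sylow p G => (X ∩ a.1 ∩ a.2).ncard) {a | X ∩ a.1 ≠ X ∩ a.2}
      (Set.toFinite _) (by obtain ⟨P, Q, e⟩ := hc; exact ⟨(P, Q), e⟩)
    have hcard : ∀ P Q : Sylow p G, (X ∩ P).ncard ≤ (X ∩ Q).ncard := fun P Q => by
      obtain ⟨g, rfl⟩ := MulAction.exists_smul_eq G P Q
      exact Set.ncard_le_ncard_of_injOn (fun x => g * x * g⁻¹)
        (fun x hx => ⟨hX _ _ hx.1, Subgroup.smul_mem_pointwise_smul _ (MulAut.conj g) _ hx.2⟩)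
        fun x _ y _ e => by simpa using e
    set D := closure (X ∩ P ∩ Q)
    have dP : D ≤ P := (Subgroup.closure_le _).2 fun x hx => hx.1.2
    have dQ : D ≤ Q := (Subgroup.closure_le _).2 fun x hx => hx.2
    have xD : X ∩ D = X ∩ P ∩ Q :=
      Set.Subset.antisymm (fun x hx => ⟨⟨hx.1, dP hx.2⟩, dQ hx.2⟩)
        fun x hx => ⟨hx.1.1, Subgroup.subset_closure hx⟩
    obtain ⟨x, hx, hxD, nx⟩ := exists_norm hX P.isPGroup' dP fun e => hne
      (Set.eq_of_subset_of_ncard_le (fun x hx => ⟨hx.1, dQ (e hx)⟩) (hcard Q P))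
    obtain ⟨y, hy, hyD, ny⟩ := exists_norm hX Q.isPGroup' dQ fun e => hne
      (Set.eq_of_subset_of_ncard_le (s := X ∩ Q) (t := X ∩ P) (fun x hx => ⟨hx.1, dP (e hx)⟩)
        (hcard P Q)).symm
    have nm : ∀ {x : G}, (∀ y ∈ X ∩ D, x * y * x⁻¹ ∈ X ∩ D) → x ∈ normalizer (D : Set G) :=
      fun {x} nx => Subgroup.mem_normalizer_fintype fun d hd =>
        (Subgroup.closure_le (D.comap (MulAut.conj x).toMonoidHom)).2
          (fun y hy => (nx y (xD ▸ hy)).2) hd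
    obtain ⟨R, hR⟩ := (IsPGroup.to_sup_of_normal_right' (h x hx.1 y hy.1) (P.isPGroup'.to_le dP)
      ((Subgroup.closure_le _).2 (by
        rintro _ (rfl | rfl)
        exacts [nm nx, nm ny]))).exists_le_sylow
    have dR : D ≤ R := le_sup_right.trans hR
    have xR : x ∈ R := hR (Subgroup.mem_sup_left (Subgroup.subset_closure (Or.inl rfl)))
    have yR : y ∈ R := hR (Subgroup.mem_sup_left (Subgroup.subset_closure (Or.inr rfl)))
    have st : ∀ {P' : Sylow p G} {x : G}, D ≤ P' → x ∈ X ∩ P' → x ∈ R → x ∉ D → X ∩ P' = X ∩ R :=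
      fun {P' x} dP' hx xR hxD => by
        by_contra e
        have lt : (X ∩ P ∩ Q).ncard < (X ∩ P' ∩ R).ncard := by
          rw [← xD]
          exact Set.ncard_lt_ncard ⟨fun d hd => ⟨⟨hd.1, dP' hd.2⟩, dR hd.2⟩,
            fun e => hxD (e ⟨hx, xR⟩).2⟩
        exact lt.not_ge (hm (j := (P', R)) e lt.le)
    exact hne ((st dP hx xR hxD).trans (st dQ hy yR hyD).symm)
  obtain ⟨P⟩ : Nonempty (Sylow p G) := inferInstance
  refine P.isPGroup'.to_le ((Subgroup.closure_le _).2 fun x hx => ?_)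
  obtain ⟨Q, hQ⟩ := (h x hx x hx).exists_le_sylow
  have : x ∈ X ∩ Q := ⟨hx, hQ (Subgroup.subset_closure (Or.inl rfl))⟩
  rw [key Q P] at this
  exact this.2

theorem two_closure {x y : G} (hx : x * x = 1) (h : IsPGroup 2 (zpowers (x * y))) (hy : y * y = 1) :
    IsPGroup 2 (closure {x, y}) := by
  have xi : x⁻¹ = x := inv_eq_of_mul_eq_one_right hx
  have yi : y⁻¹ = y := inv_eq_of_mul_eq_one_right hy
  have h1 : IsPGroup 2 (zpowers x) := by
    rintro ⟨_, i, rfl⟩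
    refine ⟨1, Subtype.ext ?_⟩
    show (x ^ i) ^ 2 ^ 1 = 1
    rw [pow_one, ← zpow_natCast, ← zpow_mul, mul_comm, zpow_mul, zpow_natCast, pow_two, hx, one_zpow]
  refine (IsPGroup.to_sup_of_normal_right' h1 h ?_).to_le ((Subgroup.closure_le _).2 ?_)
  · refine Subgroup.zpowers_le.2 (Subgroup.mem_normalizer_fintype ?_)
    rintro _ ⟨i, rfl⟩
    have : x * (x * y) * x⁻¹ = (x * y)⁻¹ := by
      rw [← mul_assoc, hx, one_mul, mul_inv_rev, yi]
    rw [← conj_zpow, this]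
    exact zpow_mem (inv_mem (Subgroup.mem_zpowers _)) _
  · have := mul_mem (Subgroup.mem_sup_left (Subgroup.mem_zpowers x))
      (Subgroup.mem_sup_right (S := zpowers x) (Subgroup.mem_zpowers (x * y)))
    rw [← mul_assoc, hx, one_mul] at this
    rintro _ (rfl | rfl)
    · exact Subgroup.mem_sup_left (Subgroup.mem_zpowers _)
    · exact this

theorem baerH : BaerH.{u} := fun G _ _ w hw h => by
  refine baer_set (X := Group.conjugatesOfSet {w}) (fun g x hx => Group.conj_mem_conjugatesOfSet hx)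
    fun x hx y hy => ?_
  obtain ⟨w1, e1, hx'⟩ := Group.mem_conjugatesOfSet_iff.1 hx
  obtain ⟨w2, e2, hy'⟩ := Group.mem_conjugatesOfSet_iff.1 hy
  rw [Set.mem_singleton_iff.1 e1] at hx'
  rw [Set.mem_singleton_iff.1 e2] at hy'
  obtain ⟨a, rfl⟩ := isConj_iff.1 hx'
  obtain ⟨b, rfl⟩ := isConj_iff.1 hy'
  have sq : ∀ c : G, c * w * c⁻¹ * (c * w * c⁻¹) = 1 := fun c => by
    rw [conj_mul, hw]; simp
  refine two_closure (sq a) ?_ (sq b)
  obtain ⟨k, hk⟩ := h (a⁻¹ * b) ⟨_, Subgroup.mem_zpowers _⟩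
  have e : (a * w * a⁻¹ * (b * w * b⁻¹)) ^ 2 ^ k = 1 := by
    rw [show a * w * a⁻¹ * (b * w * b⁻¹) = a * (w * (a⁻¹ * b * w * (a⁻¹ * b)⁻¹)) * a⁻¹ by group,
      conj_pow, show (w * (a⁻¹ * b * w * (a⁻¹ * b)⁻¹)) ^ 2 ^ k = 1 from congrArg Subtype.val hk]
    simp
  rintro ⟨_, i, rfl⟩
  refine ⟨k, Subtype.ext ?_⟩
  show (_ ^ i) ^ 2 ^ k = 1
  rw [← zpow_natCast, ← zpow_mul, mul_comm, zpow_mul, zpow_natCast, e, one_zpow]

end Cfsg.Agent.SE.CPr

namespace Cfsg.Agent.SE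

universe u

/-- `NoPP` follows from its base case. -/
theorem noPP (h : NoP3.{u}) : NoPP.{u} := CPr.noPP_of CPr.baerH h

end Cfsg.Agent.SE
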